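import Mathlib

/-! Critical groups with a prescribed spectrum: a minimal-order argument together with
affine groups over finite fields. -/

namespace Cfsg.Agent.Lib.helper29.Crit

/-! ### Elements of `r`-power order closed under products -/

def NS (r : ℕ) (K : Type*) [Group K] : Prop :=
  ∀ x y : K, (∃ n, x ^ (r ^ n) = 1) → (∃ n, y ^ (r ^ n) = 1) → ∃ n, (x * y) ^ (r ^ n) = 1

theorem NS.subgroup {r : ℕ} {K : Type*} [Group K] (h : NS r K) (H : Subgroup K) : NS r H := by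
  intro x y ⟨n, hx⟩ ⟨m, hy⟩
  obtain ⟨k, hk⟩ := h (x : K) (y : K) ⟨n, by rw [← Subgroup.coe_pow, hx, Subgroup.coe_one]⟩
    ⟨m, by rw [← Subgroup.coe_pow, hy, Subgroup.coe_one]⟩
  refine ⟨k, ?_⟩
  apply Subtype.ext
  rw [Subgroup.coe_pow, Subgroup.coe_mul, hk, Subgroup.coe_one]

theorem exists_lift {r : ℕ} (hr : r.Prime) {K : Type*} [Group K] [Finite K] (N : Subgroup K)
    [N.Normal] (x : K) (n : ℕ) (hx : (QuotientGroup.mk x : K ⧸ N) ^ (r ^ n) = 1) :
    ∃ x' : K, (QuotientGroup.mk x' : K ⧸ N) = QuotientGroup.mk x ∧ ∃ k, x' ^ (r ^ k) = 1 := by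
  obtain ⟨v, m, hm, ho⟩ := Nat.exists_eq_pow_mul_and_not_dvd (orderOf_pos x).ne' r hr.ne_one
  have hd : orderOf (QuotientGroup.mk x : K ⧸ N) ∣ r ^ n := orderOf_dvd_of_pow_eq_one hx
  obtain ⟨k, _, hk⟩ := (Nat.dvd_prime_pow hr).1 hd
  have hcop : m.Coprime (orderOf (QuotientGroup.mk x : K ⧸ N)) := by
    rw [hk]
    exact Nat.Coprime.pow_right k ((Nat.Prime.coprime_iff_not_dvd hr).2 hm).symm
  obtain ⟨t, ht⟩ := exists_pow_eq_self_of_coprime hcop
  refine ⟨(x ^ m) ^ t, ?_, v, ?_⟩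
  · rw [QuotientGroup.mk_pow, QuotientGroup.mk_pow]; exact ht
  · have e : m * (t * r ^ v) = orderOf x * t := by rw [ho]; ring
    rw [← pow_mul, ← pow_mul, e, pow_mul, pow_orderOf_eq_one, one_pow]

theorem NS.quotient {r : ℕ} (hr : r.Prime) {K : Type*} [Group K] [Finite K] (h : NS r K)
    (N : Subgroup K) [N.Normal] : NS r (K ⧸ N) := by
  intro x y ⟨n, hx⟩ ⟨m, hy⟩
  obtain ⟨x, rfl⟩ := QuotientGroup.mk_surjective x
  obtain ⟨y, rfl⟩ := QuotientGroup.mk_surjective y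
  obtain ⟨x', hx', hx''⟩ := exists_lift hr N x n hx
  obtain ⟨y', hy', hy''⟩ := exists_lift hr N y m hy
  obtain ⟨k, hk⟩ := h x' y' hx'' hy''
  refine ⟨k, ?_⟩
  rw [← hx', ← hy', ← QuotientGroup.mk_mul, ← QuotientGroup.mk_pow, hk, QuotientGroup.mk_one]

theorem NS.of_equiv {r : ℕ} {K K' : Type*} [Group K] [Group K'] (e : K ≃* K') (h : NS r K') :
    NS r K := by
  intro x y ⟨n, hx⟩ ⟨m, hy⟩
  obtain ⟨k, hk⟩ := h (e x) (e y) ⟨n, by rw [← map_pow, hx, map_one]⟩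
    ⟨m, by rw [← map_pow, hy, map_one]⟩
  refine ⟨k, e.injective ?_⟩
  rw [map_pow, map_mul, hk, map_one]

theorem commute_of_NS {r r' : ℕ} (hr : r.Prime) (hr' : r'.Prime) (hne : r ≠ r') {K : Type*}
    [Group K] (h : NS r K) (h' : NS r' K) (x y : K) (hx : x ^ r = 1) (hy : y ^ r' = 1) :
    x * y = y * x := by
  obtain ⟨n, hn⟩ : ∃ n, (x * (y * x⁻¹ * y⁻¹)) ^ (r ^ n) = 1 :=
    h x (y * x⁻¹ * y⁻¹) ⟨1, by rw [pow_one]; exact hx⟩
      ⟨1, by rw [pow_one, conj_pow, inv_pow, hx, inv_one, mul_one, mul_inv_cancel]⟩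
  obtain ⟨m, hm⟩ : ∃ n, ((x * y * x⁻¹) * y⁻¹) ^ (r' ^ n) = 1 :=
    h' (x * y * x⁻¹) y⁻¹ ⟨1, by rw [pow_one, conj_pow, hy, mul_one, mul_inv_cancel]⟩
      ⟨1, by rw [pow_one, inv_pow, hy, inv_one]⟩
  have e : x * (y * x⁻¹ * y⁻¹) = (x * y * x⁻¹) * y⁻¹ := by group
  rw [e] at hn
  have d1 := orderOf_dvd_of_pow_eq_one hn
  have d2 := orderOf_dvd_of_pow_eq_one hm
  have hcop : Nat.gcd (r ^ n) (r' ^ m) = 1 :=
    Nat.Coprime.pow n m ((Nat.coprime_primes hr hr').2 hne)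
  have h1 : orderOf ((x * y * x⁻¹) * y⁻¹) = 1 := by
    have := Nat.dvd_gcd d1 d2
    rw [hcop] at this
    exact Nat.dvd_one.1 this
  have h2 : (x * y * x⁻¹) * y⁻¹ = 1 := orderOf_eq_one_iff.1 h1
  calc x * y = ((x * y * x⁻¹) * y⁻¹) * (y * x) := by group
    _ = y * x := by rw [h2, one_mul]

/-! ### A critical group from any group with the given spectrum -/

theorem exists_critical (Ω : Set ℕ) (R : Set ℕ) (hR : ∀ r ∈ R, r.Prime) (X : Type) [Group X]
    [Finite X] (hX : Set.range (orderOf : X → ℕ) = Ω) (hNS : ∀ r ∈ R, NS r X) :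
    ∃ (K : Type) (_ : Group K) (_ : Fintype K), Set.range (orderOf : K → ℕ) = Ω ∧
      (∀ r ∈ R, NS r K) ∧
      ∀ (H : Subgroup K) (N : Subgroup H) [N.Normal], (H ≠ ⊤ ∨ N ≠ ⊥) →
        Set.range (orderOf : (H ⧸ N) → ℕ) ≠ Ω := by
  classical
  have hex : ∃ n : ℕ, ∃ (K : Type) (_ : Group K) (_ : Finite K),
      Nat.card K = n ∧ Set.range (orderOf : K → ℕ) = Ω ∧ ∀ r ∈ R, NS r K :=
    ⟨Nat.card X, X, inferInstance, inferInstance, rfl, hX, hNS⟩
  obtain ⟨K, instK, finK, hcard, hspec, hns⟩ := Nat.find_spec hex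
  refine ⟨K, instK, Fintype.ofFinite K, hspec, hns, ?_⟩
  intro H N _ hprop hbad
  have hlt : Nat.card (H ⧸ N) < Nat.card K := by
    have e1 := Subgroup.card_eq_card_quotient_mul_card_subgroup N
    have e2 := Subgroup.card_le_card_group H
    have p1 : 0 < Nat.card N := Nat.card_pos
    have p2 : 0 < Nat.card (H ⧸ N) := Nat.card_pos
    rcases hprop with h | h
    · have h3 : Nat.card H ≠ Nat.card K := fun hh => h (Subgroup.eq_top_of_card_eq H hh)
      have h4 : Nat.card (H ⧸ N) ≤ Nat.card (H ⧸ N) * Nat.card N := Nat.le_mul_of_pos_right _ p1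
      omega
    · have h2 : 1 < Nat.card N := (Subgroup.one_lt_card_iff_ne_bot N).2 h
      have h4 : Nat.card (H ⧸ N) < Nat.card (H ⧸ N) * Nat.card N := by nlinarith
      omega
  have hmin := Nat.find_min' hex (m := Nat.card (H ⧸ N))
    ⟨H ⧸ N, inferInstance, inferInstance, rfl, hbad,
      fun r hr => NS.quotient (hR r hr) (NS.subgroup (hns r hr) H) N⟩
  omega

/-! ### Affine groups -/

structure Aff (F : Type) [Field F] where
  u : Fˣ
  c : F

namespace Aff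

variable {F : Type} [Field F]

theorem ext' {a b : Aff F} (h1 : a.u = b.u) (h2 : a.c = b.c) : a = b := by
  cases a; cases b; simp_all

instance : Group (Aff F) where
  mul a b := ⟨a.u * b.u, a.c + a.u * b.c⟩
  one := ⟨1, 0⟩
  inv a := ⟨a.u⁻¹, -((a.u⁻¹ : Fˣ) * a.c)⟩
  mul_assoc a b c := by
    apply ext'
    · show a.u * b.u * c.u = a.u * (b.u * c.u)
      exact mul_assoc _ _ _
    · show a.c + (a.u : F) * b.c + ((a.u * b.u : Fˣ) : F) * c.c
        = a.c + (a.u : F) * (b.c + (b.u : F) * c.c)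
      rw [Units.val_mul]; ring
  one_mul a := by
    apply ext'
    · show 1 * a.u = a.u
      exact one_mul _
    · show (0 : F) + ((1 : Fˣ) : F) * a.c = a.c
      rw [Units.val_one]; ring
  mul_one a := by
    apply ext'
    · show a.u * 1 = a.u
      exact mul_one _
    · show a.c + (a.u : F) * 0 = a.c
      ring
  inv_mul_cancel a := by
    apply ext'
    · show a.u⁻¹ * a.u = 1
      exact inv_mul_cancel _
    · show -(((a.u⁻¹ : Fˣ) : F) * a.c) + ((a.u⁻¹ : Fˣ) : F) * a.c = 0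
      ring

@[simp] theorem mul_u (a b : Aff F) : (a * b).u = a.u * b.u := rfl
@[simp] theorem mul_c (a b : Aff F) : (a * b).c = a.c + (a.u : F) * b.c := rfl
@[simp] theorem one_u : (1 : Aff F).u = 1 := rfl
@[simp] theorem one_c : (1 : Aff F).c = 0 := rfl
@[simp] theorem inv_u (a : Aff F) : (a⁻¹).u = a.u⁻¹ := rfl

theorem pow_u (a : Aff F) (n : ℕ) : (a ^ n).u = a.u ^ n := by
  induction n with
  | zero => rw [pow_zero, pow_zero, one_u]
  | succ n ih => rw [pow_succ, mul_u, ih, pow_succ]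

theorem pow_c (a : Aff F) (n : ℕ) :
    (a ^ n).c = a.c * ∑ i ∈ Finset.range n, (a.u : F) ^ i := by
  induction n with
  | zero => rw [pow_zero, one_c, Finset.sum_range_zero, mul_zero]
  | succ n ih =>
    rw [pow_succ, mul_c, ih, pow_u, Finset.sum_range_succ, Units.val_pow_eq_pow_val]
    ring

instance [Finite F] : Finite (Aff F) :=
  Finite.of_injective (fun a : Aff F => (a.u, a.c)) (by
    intro a b h
    exact ext' (congrArg Prod.fst h) (congrArg Prod.snd h))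

theorem pow_P_eq_one {P : ℕ} [CharP F P] (a : Aff F) (hu : a.u = 1) : a ^ P = 1 := by
  apply ext'
  · rw [pow_u, hu, one_pow, one_u]
  · rw [pow_c, hu, one_c]
    simp

theorem pow_Q_eq_one {Q : ℕ} (a : Aff F) (hu : a.u ≠ 1) (hQ : a.u ^ Q = 1) : a ^ Q = 1 := by
  apply ext'
  · rw [pow_u, hQ, one_u]
  · rw [pow_c, one_c]
    have h1 := mul_geom_sum (a.u : F) Q
    have h2 : (a.u : F) ^ Q = 1 := by rw [← Units.val_pow_eq_pow_val, hQ, Units.val_one]
    rw [h2, sub_self] at h1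
    have h3 : (a.u : F) - 1 ≠ 0 := by
      intro h
      apply hu
      apply Units.ext
      rw [Units.val_one]
      exact sub_eq_zero.1 h
    rcases mul_eq_zero.1 h1 with h | h
    · exact absurd h h3
    · rw [h, mul_zero]

end Aff

open Aff in
def Ysub (F : Type) [Field F] (Q : ℕ) : Subgroup (Aff F) where
  carrier := {a | a.u ^ Q = 1}
  mul_mem' := by
    intro a b ha hb
    have ha' : a.u ^ Q = 1 := ha
    have hb' : b.u ^ Q = 1 := hb
    show (a * b).u ^ Q = 1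
    rw [mul_u, mul_pow, ha', hb', one_mul]
  one_mem' := by
    show (1 : Aff F).u ^ Q = 1
    rw [one_u, one_pow]
  inv_mem' := by
    intro a ha
    have ha' : a.u ^ Q = 1 := ha
    show (a⁻¹).u ^ Q = 1
    rw [inv_u, inv_pow, ha', inv_one]

open Aff in
theorem exists_Y_aux (F : Type) [Field F] [Finite F] (P Q : ℕ) (hP : P.Prime) (hQ : Q.Prime)
    (hne : P ≠ Q) [CharP F P] (ζ : Fˣ) (hζ1 : ζ ≠ 1) (hζQ : ζ ^ Q = 1) :
    (∀ g : Ysub F Q, orderOf g = 1 ∨ orderOf g = P ∨ orderOf g = Q) ∧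
      (∃ g : Ysub F Q, orderOf g = P) ∧ (∃ g : Ysub F Q, orderOf g = Q) ∧
      (∀ g h : Ysub F Q, (∃ n, g ^ (P ^ n) = 1) → (∃ n, h ^ (P ^ n) = 1) → (g * h) ^ P = 1) := by
  haveI : Fact P.Prime := ⟨hP⟩
  haveI : Fact Q.Prime := ⟨hQ⟩
  have key : ∀ g : Ysub F Q, (g : Aff F).u = 1 → g ^ P = 1 := by
    intro g hu
    apply Subtype.ext
    rw [Subgroup.coe_pow, Subgroup.coe_one]
    exact pow_P_eq_one (g : Aff F) hu
  have key2 : ∀ g : Ysub F Q, (g : Aff F).u ≠ 1 → g ^ Q = 1 := by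
    intro g hu
    apply Subtype.ext
    rw [Subgroup.coe_pow, Subgroup.coe_one]
    exact pow_Q_eq_one (g : Aff F) hu g.2
  have pelt : ∀ g : Ysub F Q, (∃ n, g ^ (P ^ n) = 1) → (g : Aff F).u = 1 := by
    intro g ⟨n, hn⟩
    have h1 : (g : Aff F).u ^ (P ^ n) = 1 := by
      have := congrArg (fun z : Ysub F Q => (z : Aff F).u) hn
      simpa [pow_u] using this
    have h2 : (g : Aff F).u ^ Q = 1 := g.2
    have d1 := orderOf_dvd_of_pow_eq_one h1
    have d2 := orderOf_dvd_of_pow_eq_one h2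
    have hcop : Nat.gcd (P ^ n) Q = 1 :=
      Nat.Coprime.pow_left n ((Nat.coprime_primes hP hQ).2 hne)
    have := Nat.dvd_gcd d1 d2
    rw [hcop] at this
    exact orderOf_eq_one_iff.1 (Nat.dvd_one.1 this)
  refine ⟨?_, ?_, ?_, ?_⟩
  · intro g
    by_cases hu : (g : Aff F).u = 1
    · have := orderOf_dvd_of_pow_eq_one (key g hu)
      rcases (Nat.dvd_prime hP).1 this with h | h
      · exact Or.inl h
      · exact Or.inr (Or.inl h)
    · have := orderOf_dvd_of_pow_eq_one (key2 g hu)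
      rcases (Nat.dvd_prime hQ).1 this with h | h
      · exact Or.inl h
      · exact Or.inr (Or.inr h)
  · refine ⟨⟨⟨1, 1⟩, ?_⟩, ?_⟩
    · show (1 : Fˣ) ^ Q = 1
      exact one_pow _
    · apply orderOf_eq_prime
      · exact key _ rfl
      · intro h
        have := congrArg (fun z : Ysub F Q => (z : Aff F).c) h
        simp at this
  · refine ⟨⟨⟨ζ, 0⟩, hζQ⟩, ?_⟩
    apply orderOf_eq_prime
    · exact key2 _ hζ1
    · intro h
      have := congrArg (fun z : Ysub F Q => (z : Aff F).u) h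
      exact hζ1 this
  · intro g h hg hh
    apply key
    show ((g : Aff F) * (h : Aff F)).u = 1
    rw [mul_u, pelt g hg, pelt h hh, one_mul]

theorem exists_Y (P Q : ℕ) (hP : P.Prime) (hQ : Q.Prime) (hne : P ≠ Q) :
    ∃ (Y : Type) (_ : Group Y) (_ : Finite Y),
      (∀ g : Y, orderOf g = 1 ∨ orderOf g = P ∨ orderOf g = Q) ∧
      (∃ g : Y, orderOf g = P) ∧ (∃ g : Y, orderOf g = Q) ∧
      (∀ g h : Y, (∃ n, g ^ (P ^ n) = 1) → (∃ n, h ^ (P ^ n) = 1) → (g * h) ^ P = 1) := by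
  haveI : Fact P.Prime := ⟨hP⟩
  haveI : Fact Q.Prime := ⟨hQ⟩
  have hQ1 : Q - 1 ≠ 0 := by have := hQ.two_le; omega
  have hdvd : Q ∣ Nat.card (GaloisField P (Q - 1))ˣ := by
    rw [Nat.card_units, GaloisField.card P (Q - 1) hQ1]
    have hcop : Nat.Coprime P Q := (Nat.coprime_primes hP hQ).2 hne
    have := (Nat.modEq_iff_dvd' (Nat.one_le_pow _ _ hP.pos)).1 (Nat.ModEq.pow_totient hcop).symm
    rwa [Nat.totient_prime hQ] at this
  obtain ⟨ζ, hζ⟩ := exists_prime_orderOf_dvd_card' Q hdvd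
  have hζ1 : ζ ≠ 1 := by
    intro h; rw [h, orderOf_one] at hζ; exact hQ.one_lt.ne hζ
  have hζQ : ζ ^ Q = 1 := by
    have h0 := pow_orderOf_eq_one ζ
    rwa [hζ] at h0
  exact ⟨↥(Ysub (GaloisField P (Q - 1)) Q), inferInstance, inferInstance,
    exists_Y_aux (GaloisField P (Q - 1)) P Q hP hQ hne ζ hζ1 hζQ⟩

/-! ### The product model -/

theorem prod_dvd_of_pairwise_coprime {ι : Type*} (t : Finset ι) (f : ι → ℕ) (z : ℕ)
    (hc : ∀ i ∈ t, ∀ j ∈ t, i ≠ j → Nat.Coprime (f i) (f j)) (hd : ∀ i ∈ t, f i ∣ z) :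
    ∏ i ∈ t, f i ∣ z := by
  classical
  induction t using Finset.induction_on with
  | empty => simp
  | insert a r har ih =>
    rw [Finset.prod_insert har]
    apply Nat.Coprime.mul_dvd_of_dvd_of_dvd
    · apply Nat.Coprime.prod_right
      intro i hi
      exact hc a (Finset.mem_insert_self a r) i (Finset.mem_insert_of_mem hi)
        (fun h => har (by rw [h]; exact hi))
    · exact hd a (Finset.mem_insert_self a r)
    · exact ih (fun i hi j hj hij =>
          hc i (Finset.mem_insert_of_mem hi) j (Finset.mem_insert_of_mem hj) hij)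
        (fun i hi => hd i (Finset.mem_insert_of_mem hi))

theorem exists_model {s : ℕ} (P Q : Fin s → ℕ) (hP : ∀ j, (P j).Prime) (hQ : ∀ j, (Q j).Prime)
    (hPQ : ∀ j, P j ≠ Q j)
    (hdis : ∀ j j', j ≠ j' → P j ≠ P j' ∧ P j ≠ Q j' ∧ Q j ≠ P j' ∧ Q j ≠ Q j') :
    ∃ (X : Type) (_ : Group X) (_ : Finite X),
      Set.range (orderOf : X → ℕ) =
        {m | ∃ c : Fin s → ℕ, (∀ j, c j = 1 ∨ c j = P j ∨ c j = Q j) ∧ m = ∏ j, c j} ∧
      ∀ j, NS (P j) X := by
  choose Y instY finY h1 h2 h3 h4 using fun j => exists_Y (P j) (Q j) (hP j) (hQ j) (hPQ j)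
  have hcop : ∀ (x : ∀ j, Y j) (i j : Fin s), i ≠ j →
      Nat.Coprime (orderOf (x i)) (orderOf (x j)) := by
    intro x i j hij
    obtain ⟨d1, d2, d3, d4⟩ := hdis i j hij
    rcases h1 i (x i) with h | h | h <;> rcases h1 j (x j) with h' | h' | h' <;> rw [h, h']
    · exact Nat.coprime_one_left _
    · exact Nat.coprime_one_left _
    · exact Nat.coprime_one_left _
    · exact Nat.coprime_one_right _
    · exact (Nat.coprime_primes (hP i) (hP j)).2 d1
    · exact (Nat.coprime_primes (hP i) (hQ j)).2 d2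
    · exact Nat.coprime_one_right _
    · exact (Nat.coprime_primes (hQ i) (hP j)).2 d3
    · exact (Nat.coprime_primes (hQ i) (hQ j)).2 d4
  have hord : ∀ x : ∀ j, Y j, orderOf x = ∏ j, orderOf (x j) := by
    intro x
    apply Nat.dvd_antisymm
    · apply orderOf_dvd_of_pow_eq_one
      funext j
      show x j ^ (∏ i, orderOf (x i)) = 1
      exact orderOf_dvd_iff_pow_eq_one.1 (Finset.dvd_prod_of_mem _ (Finset.mem_univ j))
    · apply prod_dvd_of_pairwise_coprime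
      · intro i _ j _ hij; exact hcop x i j hij
      · intro j _
        apply orderOf_dvd_of_pow_eq_one
        exact congrFun (pow_orderOf_eq_one x) j
  refine ⟨∀ j, Y j, inferInstance, inferInstance, ?_, ?_⟩
  · ext m
    constructor
    · rintro ⟨x, rfl⟩
      exact ⟨fun j => orderOf (x j), fun j => h1 j (x j), hord x⟩
    · rintro ⟨c, hc, rfl⟩
      have hex : ∀ j, ∃ y : Y j, orderOf y = c j := by
        intro j
        rcases hc j with h | h | h
        · exact ⟨1, by rw [orderOf_one, h]⟩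
        · obtain ⟨g, hg⟩ := h2 j; exact ⟨g, by rw [hg, h]⟩
        · obtain ⟨g, hg⟩ := h3 j; exact ⟨g, by rw [hg, h]⟩
      choose x hx using hex
      exact ⟨x, by rw [hord x]; exact Finset.prod_congr rfl (fun j _ => hx j)⟩
  · intro j x y ⟨n, hxn⟩ ⟨m, hym⟩
    refine ⟨1, ?_⟩
    rw [pow_one]
    funext i
    show (x i * y i) ^ (P j) = 1
    by_cases hij : i = j
    · subst hij
      exact h4 i (x i) (y i) ⟨n, congrFun hxn i⟩ ⟨m, congrFun hym i⟩
    · have triv : ∀ z : Y i, (∃ k, z ^ (P j ^ k) = 1) → z = 1 := by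
        intro z ⟨k, hk⟩
        have hd : orderOf z ∣ P j ^ k := orderOf_dvd_of_pow_eq_one hk
        obtain ⟨d1, d2, d3, d4⟩ := hdis i j hij
        rcases h1 i z with h | h | h
        · exact orderOf_eq_one_iff.1 h
        · exfalso; rw [h] at hd
          exact d1 ((Nat.prime_dvd_prime_iff_eq (hP i) (hP j)).1 ((hP i).dvd_of_dvd_pow hd))
        · exfalso; rw [h] at hd
          exact d3 ((Nat.prime_dvd_prime_iff_eq (hQ i) (hP j)).1 ((hQ i).dvd_of_dvd_pow hd))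
      rw [triv (x i) ⟨n, congrFun hxn i⟩, triv (y i) ⟨m, congrFun hym i⟩, one_mul, one_pow]

/-! ### Arithmetic of the target spectrum -/

theorem fin2_cases (A : Fin 2 → ℕ) (v : ℕ) (x : Fin 2) :
    (v = 1 ∨ v = A x ∨ v = A (x + 1)) ↔ (v = 1 ∨ v = A 0 ∨ v = A 1) := by
  have h0 : (0 : Fin 2) + 1 = 1 := rfl
  have h1 : (1 : Fin 2) + 1 = 0 := rfl
  obtain rfl | rfl : x = 0 ∨ x = 1 := by revert x; decide
  · rw [h0]
  · rw [h1]; tauto

theorem prod_ne_of_pair {s : ℕ} (p : Fin s → Fin 2 → ℕ) (hp : ∀ j i, (p j i).Prime)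
    (hinj : ∀ j i j' i', p j i = p j' i' → j = j' ∧ i = i') (j : Fin s) (i i' : Fin 2)
    (hii : i ≠ i') (c : Fin s → ℕ) (hc : ∀ j, c j = 1 ∨ c j = p j 0 ∨ c j = p j 1) :
    p j i * p j i' ≠ ∏ j, c j := by
  intro h
  have key : ∀ k : Fin 2, p j k ∣ ∏ j, c j → c j = p j k := by
    intro k hk
    obtain ⟨j', _, hj'⟩ := (Prime.dvd_finsetProd_iff (Nat.Prime.prime (hp j k)) _).1 hk
    rcases hc j' with h1 | h1 | h1
    · rw [h1] at hj'; exact absurd (Nat.dvd_one.1 hj') (hp j k).one_lt.ne'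
    · rw [h1] at hj'
      have e := (Nat.prime_dvd_prime_iff_eq (hp j k) (hp j' 0)).1 hj'
      obtain ⟨rfl, _⟩ := hinj _ _ _ _ e
      rw [h1, e]
    · rw [h1] at hj'
      have e := (Nat.prime_dvd_prime_iff_eq (hp j k) (hp j' 1)).1 hj'
      obtain ⟨rfl, _⟩ := hinj _ _ _ _ e
      rw [h1, e]
  have e1 := key i (Dvd.intro _ h)
  have e2 := key i' (Dvd.intro_left _ h)
  exact hii (hinj _ _ _ _ (e1.symm.trans e2)).2

theorem mem_of_single {s : ℕ} (p : Fin s → Fin 2 → ℕ) (j : Fin s) (i : Fin 2) :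
    p j i ∈ {m : ℕ | ∃ c : Fin s → ℕ, (∀ j, c j = 1 ∨ c j = p j 0 ∨ c j = p j 1) ∧
      m = ∏ j, c j} := by
  refine ⟨fun j' => if j' = j then p j i else 1, ?_, ?_⟩
  · intro j'
    by_cases h : j' = j
    · subst h
      obtain rfl | rfl : i = 0 ∨ i = 1 := by revert i; decide
      · right; left; simp
      · right; right; simp
    · left; simp [h]
  · simp

/-! ### Main statement -/

theorem main (s : ℕ) (p : Fin s → Fin 2 → ℕ)
    (hp : ∀ j i, (p j i).Prime) (hinj : ∀ j i j' i', p j i = p j' i' → j = j' ∧ i = i') :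
    ∃ (G : Fin (2 ^ s) → Type) (_ : ∀ a, Group (G a)) (_ : ∀ a, Fintype (G a)),
      (∀ a b, a ≠ b → ¬ Nonempty (G a ≃* G b)) ∧
      ∀ a, Set.range (orderOf : (G a) → ℕ) = {m : ℕ | ∃ c : Fin s → ℕ, (∀ j, c j = 1 ∨ c j = p j 0 ∨ c j = p j 1) ∧ m = ∏ j, c j} ∧
      ∀ (H : Subgroup (G a)) (N : Subgroup ↥H) [N.Normal], (H ≠ ⊤ ∨ N ≠ ⊥) → Set.range (orderOf : (↥H ⧸ N) → ℕ) ≠ {m : ℕ | ∃ c : Fin s → ℕ, (∀ j, c j = 1 ∨ c j = p j 0 ∨ c j = p j 1) ∧ m = ∏ j, c j} := by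
  classical
  have hcardε : Fintype.card (Fin (2 ^ s)) = Fintype.card (Fin s → Fin 2) := by simp
  obtain ⟨ε⟩ : Nonempty (Fin (2 ^ s) ≃ (Fin s → Fin 2)) := ⟨Fintype.equivOfCardEq hcardε⟩
  have hf2 : ∀ x : Fin 2, x ≠ x + 1 := by decide
  have hmodel : ∀ a : Fin (2 ^ s), ∃ (K : Type) (_ : Group K) (_ : Fintype K),
      Set.range (orderOf : K → ℕ) = {m : ℕ | ∃ c : Fin s → ℕ, (∀ j, c j = 1 ∨ c j = p j 0 ∨ c j = p j 1) ∧ m = ∏ j, c j} ∧
      (∀ r ∈ {r : ℕ | ∃ j, r = p j (ε a j)}, NS r K) ∧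
      ∀ (H : Subgroup K) (N : Subgroup H) [N.Normal], (H ≠ ⊤ ∨ N ≠ ⊥) →
        Set.range (orderOf : (H ⧸ N) → ℕ) ≠ {m : ℕ | ∃ c : Fin s → ℕ, (∀ j, c j = 1 ∨ c j = p j 0 ∨ c j = p j 1) ∧ m = ∏ j, c j} := by
    intro a
    obtain ⟨X, instX, finX, hXspec, hXns⟩ := exists_model (fun j => p j (ε a j))
      (fun j => p j (ε a j + 1)) (fun j => hp j _) (fun j => hp j _)
      (fun j h => hf2 _ (hinj _ _ _ _ h).2)
      (fun j j' hjj' => ⟨fun h => hjj' (hinj _ _ _ _ h).1, fun h => hjj' (hinj _ _ _ _ h).1,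
        fun h => hjj' (hinj _ _ _ _ h).1, fun h => hjj' (hinj _ _ _ _ h).1⟩)
    apply exists_critical _ {r : ℕ | ∃ j, r = p j (ε a j)}
      (by rintro r ⟨j, rfl⟩; exact hp j _) X
    · rw [hXspec]
      ext m
      constructor
      · rintro ⟨c, hc, rfl⟩
        exact ⟨c, fun j => (fin2_cases (p j) (c j) (ε a j)).1 (hc j), rfl⟩
      · rintro ⟨c, hc, rfl⟩
        exact ⟨c, fun j => (fin2_cases (p j) (c j) (ε a j)).2 (hc j), rfl⟩
    · rintro r ⟨j, rfl⟩; exact hXns j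
  choose G instG fintG hspec hns hcrit using hmodel
  refine ⟨G, instG, fintG, ?_, fun a => ⟨hspec a, fun H N _ h => hcrit a H N h⟩⟩
  rintro a b hab ⟨e⟩
  have hne : ε a ≠ ε b := fun h => hab (ε.injective h)
  obtain ⟨j, hj⟩ : ∃ j, ε a j ≠ ε b j := Function.ne_iff.1 hne
  have hr : NS (p j (ε a j)) (G a) := hns a _ ⟨j, rfl⟩
  have hr' : NS (p j (ε b j)) (G a) := NS.of_equiv e (hns b _ ⟨j, rfl⟩)
  have hrr' : p j (ε a j) ≠ p j (ε b j) := fun h => hj (hinj _ _ _ _ h).2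
  have m1 := mem_of_single p j (ε a j)
  have m2 := mem_of_single p j (ε b j)
  rw [← hspec a] at m1 m2
  obtain ⟨x, hx⟩ := m1
  obtain ⟨y, hy⟩ := m2
  have hcomm : x * y = y * x := commute_of_NS (hp j _) (hp j _) hrr' hr hr' x y
    (by rw [← hx]; exact pow_orderOf_eq_one x) (by rw [← hy]; exact pow_orderOf_eq_one y)
  have hord : orderOf (x * y) = p j (ε a j) * p j (ε b j) := by
    have hc : Commute x y := hcomm
    rw [hc.orderOf_mul_eq_mul_orderOf_of_coprime (by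
      rw [hx, hy]; exact (Nat.coprime_primes (hp j _) (hp j _)).2 hrr'), hx, hy]
  have hmem : p j (ε a j) * p j (ε b j) ∈ Set.range (orderOf : G a → ℕ) := ⟨x * y, hord⟩
  rw [hspec a] at hmem
  obtain ⟨c, hc, hprod⟩ := hmem
  exact prod_ne_of_pair p hp hinj j (ε a j) (ε b j) hj c hc hprod

end Cfsg.Agent.Lib.helper29.Crit
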