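import Mathlib
import Cfsg.Prelude.Def_SylowChains
import Cfsg.Agent.Lib.helper10.ConjBasic

set_option autoImplicit false

/-! Control of Sylow intersections: chains as reflexive transitive closures, and an ambient
description of regularity of a subgroup for a normalizer functor. -/

namespace Cfsg.Agent.Lib.helper29.SylCtl

open Cfsg

universe u v

variable {G : Type u} [Group G]

theorem fact_eq {p m n : ℕ} (hp : p.Prime) (h1 : p ^ n.factorization p ∣ m) (h2 : m ∣ n)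
    (hn : n ≠ 0) : m.factorization p = n.factorization p := by
  have hm : m ≠ 0 := ne_zero_of_dvd_ne_zero hn h2
  apply le_antisymm
  · exact (Nat.factorization_le_iff_dvd hm hn).mpr h2 p
  · exact (hp.pow_dvd_iff_le_factorization hm).mp h1

theorem conj_mem_normalizer (F : Subgroup G) (g x : G)
    (hx : x ∈ Subgroup.normalizer (F : Set G)) :
    g * x * g⁻¹ ∈ Subgroup.normalizer
      ((F.map (MulAut.conj g).toMonoidHom : Subgroup G) : Set G) := by
  rw [Subgroup.mem_normalizer_iff] at hx ⊢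
  intro y
  rw [Cfsg.Agent.Lib.helper10.mem_map_conj, Cfsg.Agent.Lib.helper10.mem_map_conj,
    hx (g⁻¹ * y * g)]
  have e : g⁻¹ * (g * x * g⁻¹ * y * (g * x * g⁻¹)⁻¹) * g = x * (g⁻¹ * y * g) * x⁻¹ := by group
  rw [e]

theorem map_conj_inv (P : Subgroup G) (a : G) :
    (P.map (MulAut.conj a).toMonoidHom).map (MulAut.conj a⁻¹).toMonoidHom = P := by
  ext y
  rw [Cfsg.Agent.Lib.helper10.mem_map_conj, Cfsg.Agent.Lib.helper10.mem_map_conj]
  have e : a⁻¹ * (a⁻¹⁻¹ * y * a⁻¹) * a = y := by group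
  rw [e]

/-- `P` is a Sylow `p`-subgroup of `M`, in ambient terms. -/
def SylIn (p : ℕ) (M P : Subgroup G) : Prop :=
  P ≤ M ∧ Nat.card P = p ^ (Nat.card M).factorization p

/-- One ambient step of a chain inside `M` for the functor family. -/
def ASt (p : ℕ) (f : Subgroup G → Set (Subgroup G)) (M D P Q : Subgroup G) : Prop :=
  SylIn p M P ∧ SylIn p M Q ∧ D ≤ P ∧ D ≤ Q ∧
    ∃ (R F : Subgroup G) (x : G), SylIn p M R ∧ F ∈ f R ∧ x ∈ M ∧
      x ∈ Subgroup.normalizer (F : Set G) ∧ P ≤ Subgroup.normalizer (F : Set G) ∧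
      Q ≤ Subgroup.normalizer (F : Set G) ∧ Q.map (MulAut.conj x⁻¹).toMonoidHom = P

/-- One step of a chain of Sylow subgroups for a family. -/
def St (p : ℕ) {H : Type v} [Group H] (𝓧 : Set (Subgroup H)) (D : Subgroup H)
    (P Q : Sylow p H) : Prop :=
  ∃ (X : Subgroup H) (x : H), X ∈ Cfsg.sylowMembers p 𝓧 (P : Subgroup H) ∧
    X ∈ Cfsg.sylowMembers p 𝓧 (Q : Subgroup H) ∧ x ∈ X ∧
    Cfsg.subgroupConjRight x (Q : Subgroup H) = (P : Subgroup H) ∧
    D ≤ (P : Subgroup H) ∧ D ≤ (Q : Subgroup H) ∧ D ≤ X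

theorem chain_of_rtg (p : ℕ) {H : Type v} [Group H] (𝓧 : Set (Subgroup H)) (D : Subgroup H)
    (S T : Sylow p H) (h : Relation.ReflTransGen (St p 𝓧 D) S T) :
    ∃ (n : ℕ) (c : Fin (n + 1) → Sylow p H) (X : Fin n → Subgroup H) (x : Fin n → H),
      c 0 = S ∧ c (Fin.last n) = T ∧
      ∀ i : Fin n,
        X i ∈ Cfsg.sylowMembers p 𝓧 (c i.castSucc : Subgroup H) ∧
        X i ∈ Cfsg.sylowMembers p 𝓧 (c i.succ : Subgroup H) ∧
        x i ∈ X i ∧
        Cfsg.subgroupConjRight (x i) (c i.succ : Subgroup H) = (c i.castSucc : Subgroup H) ∧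
        D ≤ (c i.succ : Subgroup H) ⊓ X i := by
  induction h using Relation.ReflTransGen.head_induction_on with
  | refl =>
    exact ⟨0, fun _ => T, fun i => i.elim0, fun i => i.elim0, rfl, rfl, fun i => i.elim0⟩
  | @head a c' hst hrest ih =>
    obtain ⟨n, c, X, x, h0, hl, hstep⟩ := ih
    obtain ⟨X₀, x₀, hX1, hX2, hx₀, hconj, hD1, hD2, hD3⟩ := hst
    refine ⟨n + 1, Fin.cons a c, Fin.cons X₀ X, Fin.cons x₀ x, Fin.cons_zero _ _, ?_, ?_⟩
    · rw [← Fin.succ_last, Fin.cons_succ]; exact hl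
    · intro i
      refine Fin.cases ?_ (fun j => ?_) i
      · have e1 : (Fin.cons a c : Fin (n + 1 + 1) → Sylow p H)
            (Fin.castSucc (0 : Fin (n + 1))) = a := by
          rw [Fin.castSucc_zero]; exact Fin.cons_zero _ _
        have e2 : (Fin.cons a c : Fin (n + 1 + 1) → Sylow p H)
            (Fin.succ (0 : Fin (n + 1))) = c' := by
          rw [Fin.cons_succ]; exact h0
        have e3 : (Fin.cons X₀ X : Fin (n + 1) → Subgroup H) 0 = X₀ := Fin.cons_zero _ _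
        have e4 : (Fin.cons x₀ x : Fin (n + 1) → H) 0 = x₀ := Fin.cons_zero _ _
        rw [e1, e2, e3, e4]
        exact ⟨hX1, hX2, hx₀, hconj, le_inf hD2 hD3⟩
      · have e1 : (Fin.cons a c : Fin (n + 1 + 1) → Sylow p H)
            (Fin.castSucc (Fin.succ j)) = c j.castSucc := by
          rw [← Fin.succ_castSucc]; exact Fin.cons_succ _ _ _
        have e2 : (Fin.cons a c : Fin (n + 1 + 1) → Sylow p H)
            (Fin.succ (Fin.succ j)) = c j.succ := Fin.cons_succ _ _ _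
        have e3 : (Fin.cons X₀ X : Fin (n + 1) → Subgroup H) (Fin.succ j) = X j :=
          Fin.cons_succ _ _ _
        have e4 : (Fin.cons x₀ x : Fin (n + 1) → H) (Fin.succ j) = x j := Fin.cons_succ _ _ _
        rw [e1, e2, e3, e4]
        exact hstep j

theorem rtg_of_chain (p : ℕ) {H : Type v} [Group H] (𝓧 : Set (Subgroup H)) (D : Subgroup H) :
    ∀ (n : ℕ) (c : Fin (n + 1) → Sylow p H) (X : Fin n → Subgroup H) (x : Fin n → H),
      D ≤ (c 0 : Subgroup H) →
      (∀ i : Fin n,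
        X i ∈ Cfsg.sylowMembers p 𝓧 (c i.castSucc : Subgroup H) ∧
        X i ∈ Cfsg.sylowMembers p 𝓧 (c i.succ : Subgroup H) ∧
        x i ∈ X i ∧
        Cfsg.subgroupConjRight (x i) (c i.succ : Subgroup H) = (c i.castSucc : Subgroup H) ∧
        D ≤ (c i.succ : Subgroup H) ⊓ X i) →
      Relation.ReflTransGen (St p 𝓧 D) (c 0) (c (Fin.last n)) := by
  intro n
  induction n with
  | zero => intro c X x _ _; exact Relation.ReflTransGen.refl
  | succ n ih =>
    intro c X x hD hstep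
    obtain ⟨h1, h2, h3, h4, h5⟩ := hstep 0
    rw [Fin.castSucc_zero] at h1 h4
    have hs : St p 𝓧 D (c 0) (c (Fin.succ 0)) :=
      ⟨X 0, x 0, h1, h2, h3, h4, hD, le_trans h5 inf_le_left, le_trans h5 inf_le_right⟩
    have hrest := ih (fun i => c i.succ) (fun i => X i.succ) (fun i => x i.succ)
      (le_trans h5 inf_le_left) (fun i => by
        have := hstep i.succ
        rw [← Fin.succ_castSucc] at this
        exact this)
    have hrest' : Relation.ReflTransGen (St p 𝓧 D) (c (Fin.succ 0)) (c (Fin.last (n + 1))) :=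
      hrest
    exact Relation.ReflTransGen.head hs hrest'

theorem ctl_of_rtg (p : ℕ) {H : Type v} [Group H] (𝓧 : Set (Subgroup H))
    (h : ∀ S T : Sylow p H, S ≠ T → (S : Subgroup H) ⊓ (T : Subgroup H) ≠ ⊥ →
      Relation.ReflTransGen (St p 𝓧 ((S : Subgroup H) ⊓ (T : Subgroup H))) S T) :
    Cfsg.ControlsSylowIntersections p 𝓧 := by
  intro S T hne hD
  exact chain_of_rtg p 𝓧 _ S T (h S T hne hD)

theorem rtg_of_ctl (p : ℕ) {H : Type v} [Group H] (𝓧 : Set (Subgroup H))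
    (h : Cfsg.ControlsSylowIntersections p 𝓧) (S T : Sylow p H) (hne : S ≠ T)
    (hD : (S : Subgroup H) ⊓ (T : Subgroup H) ≠ ⊥) :
    Relation.ReflTransGen (St p 𝓧 ((S : Subgroup H) ⊓ (T : Subgroup H))) S T := by
  obtain ⟨n, c, X, x, h0, hl, hstep⟩ := h S T hne hD
  have key := rtg_of_chain p 𝓧 ((S : Subgroup H) ⊓ (T : Subgroup H)) n c X x
    (by rw [h0]; exact inf_le_left) hstep
  rw [h0, hl] at key
  exact key

theorem St_symm (p : ℕ) {H : Type v} [Group H] (𝓧 : Set (Subgroup H)) (D : Subgroup H)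
    (P Q : Sylow p H) (h : St p 𝓧 D P Q) : St p 𝓧 D Q P := by
  obtain ⟨X, x, hX1, hX2, hx, hconj, hD1, hD2, hD3⟩ := h
  refine ⟨X, x⁻¹, hX2, hX1, X.inv_mem hx, ?_, hD2, hD1, hD3⟩
  rw [← hconj]
  unfold Cfsg.subgroupConjRight
  rw [inv_inv]
  have := map_conj_inv (Q : Subgroup H) x⁻¹
  rw [inv_inv] at this
  exact this

theorem St_mono (p : ℕ) {H : Type v} [Group H] (𝓧 : Set (Subgroup H)) {D D' : Subgroup H}
    (hD : D' ≤ D) (P Q : Sylow p H) (h : St p 𝓧 D P Q) : St p 𝓧 D' P Q := by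
  obtain ⟨X, x, hX1, hX2, hx, hconj, hD1, hD2, hD3⟩ := h
  exact ⟨X, x, hX1, hX2, hx, hconj, le_trans hD hD1, le_trans hD hD2, le_trans hD hD3⟩

theorem card_subgroupOf_of_le {A B : Subgroup G} (h : A ≤ B) :
    Nat.card (A.subgroupOf B) = Nat.card A :=
  Nat.card_congr (Subgroup.subgroupOfEquivOfLe h).toEquiv

theorem mem_map_subtype_iff (M : Subgroup G) (A : Subgroup ↥M) (y : ↥M) :
    (y : G) ∈ A.map M.subtype ↔ y ∈ A := by
  constructor
  · rintro ⟨z, hz, hzy⟩
    have : z = y := Subtype.ext hzy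
    rw [← this]; exact hz
  · intro hy; exact ⟨y, hy, rfl⟩

section fin

variable [Finite G]

/-- the Sylow subgroup of `M` attached to an ambient one -/
noncomputable def toSyl (p : ℕ) [Fact p.Prime] (M P : Subgroup G) (hP : SylIn p M P) :
    Sylow p ↥M :=
  Sylow.ofCard (P.subgroupOf M) (by rw [card_subgroupOf_of_le hP.1]; exact hP.2)

theorem toSyl_coe (p : ℕ) [Fact p.Prime] (M P : Subgroup G) (hP : SylIn p M P) :
    ((toSyl p M P hP : Sylow p ↥M) : Subgroup ↥M) = P.subgroupOf M := rfl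

theorem toSyl_map (p : ℕ) [Fact p.Prime] (M P : Subgroup G) (hP : SylIn p M P) :
    ((toSyl p M P hP : Sylow p ↥M) : Subgroup ↥M).map M.subtype = P := by
  rw [toSyl_coe]; exact Subgroup.map_subgroupOf_eq_of_le hP.1

theorem sylIn_map (p : ℕ) [Fact p.Prime] (M : Subgroup G) (S : Sylow p ↥M) :
    SylIn p M ((S : Subgroup ↥M).map M.subtype) :=
  ⟨Subgroup.map_subtype_le _, by
    rw [Subgroup.card_map_of_injective (Subgroup.subtype_injective M)]
    exact S.card_eq_multiplicity⟩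

theorem toSyl_of_map (p : ℕ) [Fact p.Prime] (M : Subgroup G) (S : Sylow p ↥M)
    (h : SylIn p M ((S : Subgroup ↥M).map M.subtype)) : toSyl p M _ h = S := by
  apply Sylow.ext
  rw [toSyl_coe]
  exact Subgroup.comap_map_eq_self_of_injective (Subgroup.subtype_injective M) _

/-- A subgroup meeting a Sylow subgroup in an (ambient) Sylow subgroup of itself is a member. -/
theorem mem_sylowMembers_of (p : ℕ) [Fact p.Prime] (𝓧 : Set (Subgroup G)) (X S₁ : Subgroup G)
    (hX : X ∈ 𝓧) (hS : SylIn p X (S₁ ⊓ X)) : X ∈ Cfsg.sylowMembers p 𝓧 S₁ :=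
  ⟨hX, toSyl p X (S₁ ⊓ X) hS, toSyl_map p X (S₁ ⊓ X) hS⟩

theorem mem_sm (p : ℕ) [Fact p.Prime] (f : Subgroup G → Set (Subgroup G))
    (M R₀ F P' : Subgroup G) (hR₀ : SylIn p M R₀) (hF : F ∈ f R₀) (hP' : SylIn p M P')
    (hPN : P' ≤ Subgroup.normalizer (F : Set G)) :
    (M ⊓ Subgroup.normalizer (F : Set G)).subgroupOf M ∈
      Cfsg.sylowMembers p ((fun X : Subgroup G => X.subgroupOf M) '' Cfsg.functorFamily p f M)
        ((toSyl p M P' hP' : Sylow p ↥M) : Subgroup ↥M) := by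
  have hp : p.Prime := Fact.out
  refine ⟨⟨M ⊓ Subgroup.normalizer (F : Set G), ⟨toSyl p M R₀ hR₀, F, ?_, rfl⟩, rfl⟩, ?_⟩
  · rw [toSyl_map]; exact hF
  · have hSPX : ((toSyl p M P' hP' : Sylow p ↥M) : Subgroup ↥M) ≤
        (M ⊓ Subgroup.normalizer (F : Set G)).subgroupOf M := by
      intro s hs
      rw [toSyl_coe, Subgroup.mem_subgroupOf] at hs
      rw [Subgroup.mem_subgroupOf, Subgroup.mem_inf]
      exact ⟨s.2, hPN hs⟩
    have hv : (Nat.card ((M ⊓ Subgroup.normalizer (F : Set G)).subgroupOf M)).factorization p =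
        (Nat.card ↥M).factorization p := by
      refine fact_eq hp ?_ (Subgroup.card_subgroup_dvd_card _) Nat.card_pos.ne'
      have := Subgroup.card_dvd_of_le hSPX
      rwa [Sylow.card_eq_multiplicity] at this
    refine ⟨Sylow.ofCard (((toSyl p M P' hP' : Sylow p ↥M) : Subgroup ↥M).subgroupOf
      ((M ⊓ Subgroup.normalizer (F : Set G)).subgroupOf M)) ?_, ?_⟩
    · rw [card_subgroupOf_of_le hSPX, (toSyl p M P' hP').card_eq_multiplicity, hv]
    · rw [Sylow.coe_ofCard]; exact Subgroup.subgroupOf_map_subtype _ _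

/-- regularity gives ambient chains -/
theorem regular_ambient (p : ℕ) [Fact p.Prime] (f : Subgroup G → Set (Subgroup G))
    (hf : Cfsg.IsNormalizerFunctor p f) (M : Subgroup G)
    (hr : Cfsg.IsFunctorRegular p f M) (P Q : Subgroup G) (hP : SylIn p M P)
    (hQ : SylIn p M Q) (hne : P ≠ Q) (hD : P ⊓ Q ≠ ⊥) :
    Relation.ReflTransGen (ASt p f M (P ⊓ Q)) P Q := by
  have hp : p.Prime := Fact.out
  obtain ⟨S, hS⟩ : ∃ S : Sylow p ↥M, S = toSyl p M P hP := ⟨_, rfl⟩
  obtain ⟨T, hT⟩ : ∃ T : Sylow p ↥M, T = toSyl p M Q hQ := ⟨_, rfl⟩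
  have hSm : (S : Subgroup ↥M).map M.subtype = P := by rw [hS]; exact toSyl_map p M P hP
  have hTm : (T : Subgroup ↥M).map M.subtype = Q := by rw [hT]; exact toSyl_map p M Q hQ
  have hSc : (S : Subgroup ↥M) = P.subgroupOf M := by rw [hS]; rfl
  have hTc : (T : Subgroup ↥M) = Q.subgroupOf M := by rw [hT]; rfl
  have hST : S ≠ T := by
    intro h; apply hne; rw [← hSm, ← hTm, h]
  have hDM : ∀ y : ↥M, y ∈ (S : Subgroup ↥M) ⊓ (T : Subgroup ↥M) ↔ (y : G) ∈ P ⊓ Q := by
    intro y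
    rw [hSc, hTc, Subgroup.mem_inf, Subgroup.mem_inf, Subgroup.mem_subgroupOf,
      Subgroup.mem_subgroupOf]
  have hD' : (S : Subgroup ↥M) ⊓ (T : Subgroup ↥M) ≠ ⊥ := by
    intro h
    apply hD
    rw [eq_bot_iff]
    intro y hy
    have hyM : y ∈ M := hP.1 hy.1
    have h1 : (⟨y, hyM⟩ : ↥M) ∈ (S : Subgroup ↥M) ⊓ (T : Subgroup ↥M) :=
      (hDM ⟨y, hyM⟩).mpr hy
    rw [h, Subgroup.mem_bot] at h1
    rw [Subgroup.mem_bot]
    exact congrArg Subtype.val h1
  have hchain := rtg_of_ctl p _ hr S T hST hD'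
  have hstep : ∀ S' T' : Sylow p ↥M,
      St p ((fun X : Subgroup G => X.subgroupOf M) '' Cfsg.functorFamily p f M)
        ((S : Subgroup ↥M) ⊓ (T : Subgroup ↥M)) S' T' →
      ASt p f M (P ⊓ Q) ((S' : Subgroup ↥M).map M.subtype)
        ((T' : Subgroup ↥M).map M.subtype) := by
    intro S' T' hst
    obtain ⟨X, x, hX1, hX2, hx, hconj, hD1, hD2, hD3⟩ := hst
    obtain ⟨⟨Y, ⟨R, F, hF, hY⟩, hYX⟩, hP1⟩ := hX1
    obtain ⟨_, hP2⟩ := hX2
    have hXeq : X = (M ⊓ Subgroup.normalizer (F : Set G)).subgroupOf M := by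
      rw [← hYX, hY]
    have hXmem : ∀ y : ↥M, y ∈ X ↔ (y : G) ∈ Subgroup.normalizer (F : Set G) := by
      intro y
      rw [hXeq, Subgroup.mem_subgroupOf, Subgroup.mem_inf]
      exact ⟨fun h => h.2, fun h => ⟨y.2, h⟩⟩
    have hR₀ : SylIn p M ((R : Subgroup ↥M).map M.subtype) := sylIn_map p M R
    have hRp : IsPGroup p ↥((R : Subgroup ↥M).map M.subtype) := IsPGroup.of_card hR₀.2
    have hFR := (hf _ hRp).1 F hF
    have hRX : (R : Subgroup ↥M) ≤ X := by
      intro r hr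
      rw [hXmem]
      apply hFR.2
      apply Subgroup.le_normalizer
      exact Subgroup.mem_map_of_mem _ hr
    have hv : (Nat.card X).factorization p = (Nat.card ↥M).factorization p := by
      refine fact_eq hp ?_ (Subgroup.card_subgroup_dvd_card X) Nat.card_pos.ne'
      have := Subgroup.card_dvd_of_le hRX
      rwa [Sylow.card_eq_multiplicity] at this
    have hle : ∀ S'' : Sylow p ↥M,
        (∃ P1 : Sylow p ↥X, (P1 : Subgroup ↥X).map X.subtype = (S'' : Subgroup ↥M) ⊓ X) →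
        (S'' : Subgroup ↥M) ≤ X := by
      rintro S'' ⟨P1, hP1eq⟩
      have hc : Nat.card ↥((S'' : Subgroup ↥M) ⊓ X) = Nat.card ↥(S'' : Subgroup ↥M) := by
        rw [← hP1eq, Subgroup.card_map_of_injective (Subgroup.subtype_injective X),
          P1.card_eq_multiplicity, hv, S''.card_eq_multiplicity]
      have h2 := Subgroup.eq_of_le_of_card_ge
        (inf_le_left : (S'' : Subgroup ↥M) ⊓ X ≤ (S'' : Subgroup ↥M)) (le_of_eq hc.symm)
      rw [← h2]; exact inf_le_right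
    have hSX := hle S' hP1
    have hTX := hle T' hP2
    have hhom : (MulAut.conj (x : G)⁻¹).toMonoidHom.comp M.subtype =
        M.subtype.comp (MulAut.conj x⁻¹).toMonoidHom := MonoidHom.ext fun y => rfl
    refine ⟨sylIn_map p M S', sylIn_map p M T', ?_, ?_, (R : Subgroup ↥M).map M.subtype, F,
      (x : G), hR₀, hF, x.2, (hXmem x).mp hx, ?_, ?_, ?_⟩
    · intro y hy
      have hyM : y ∈ M := hP.1 hy.1
      exact ⟨⟨y, hyM⟩, hD1 ((hDM ⟨y, hyM⟩).mpr hy), rfl⟩
    · intro y hy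
      have hyM : y ∈ M := hP.1 hy.1
      exact ⟨⟨y, hyM⟩, hD2 ((hDM ⟨y, hyM⟩).mpr hy), rfl⟩
    · rintro _ ⟨s, hs, rfl⟩; exact (hXmem s).mp (hSX hs)
    · rintro _ ⟨s, hs, rfl⟩; exact (hXmem s).mp (hTX hs)
    · rw [← hconj]
      show ((T' : Subgroup ↥M).map M.subtype).map (MulAut.conj (x : G)⁻¹).toMonoidHom =
        ((T' : Subgroup ↥M).map (MulAut.conj x⁻¹).toMonoidHom).map M.subtype
      rw [Subgroup.map_map, Subgroup.map_map, hhom]
  have key := Relation.ReflTransGen.lift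
    (fun S' : Sylow p ↥M => (S' : Subgroup ↥M).map M.subtype) hstep _ _ hchain
  have key' : Relation.ReflTransGen (ASt p f M (P ⊓ Q)) ((S : Subgroup ↥M).map M.subtype)
      ((T : Subgroup ↥M).map M.subtype) := key
  rw [hSm, hTm] at key'
  exact key'

/-- ambient chains give regularity -/
theorem ambient_regular (p : ℕ) [Fact p.Prime] (f : Subgroup G → Set (Subgroup G))
    (M : Subgroup G)
    (h : ∀ P Q : Subgroup G, SylIn p M P → SylIn p M Q → P ≠ Q → P ⊓ Q ≠ ⊥ →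
      Relation.ReflTransGen (ASt p f M (P ⊓ Q)) P Q) :
    Cfsg.IsFunctorRegular p f M := by
  have hp : p.Prime := Fact.out
  show Cfsg.ControlsSylowIntersections p _
  apply ctl_of_rtg
  intro S T hne hD
  have hPs := sylIn_map p M S
  have hQs := sylIn_map p M T
  have hPQ : (S : Subgroup ↥M).map M.subtype ≠ (T : Subgroup ↥M).map M.subtype := by
    intro e; apply hne; apply Sylow.ext
    exact Subgroup.map_injective (Subgroup.subtype_injective M) e
  have hDM : ∀ y : ↥M, y ∈ (S : Subgroup ↥M) ⊓ (T : Subgroup ↥M) ↔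
      (y : G) ∈ (S : Subgroup ↥M).map M.subtype ⊓ (T : Subgroup ↥M).map M.subtype := by
    intro y
    rw [Subgroup.mem_inf, Subgroup.mem_inf, mem_map_subtype_iff, mem_map_subtype_iff]
  have hD2 : (S : Subgroup ↥M).map M.subtype ⊓ (T : Subgroup ↥M).map M.subtype ≠ ⊥ := by
    intro e
    apply hD
    rw [eq_bot_iff]
    intro y hy
    have h1 := (hDM y).mp hy
    rw [e, Subgroup.mem_bot] at h1
    rw [Subgroup.mem_bot]
    exact Subtype.ext h1
  have chain := h _ _ hPs hQs hPQ hD2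
  obtain ⟨g, hg⟩ : ∃ g : Subgroup G → Sylow p ↥M,
      ∀ P' (hP' : SylIn p M P'), g P' = toSyl p M P' hP' := by
    classical
    exact ⟨fun P' => if hP' : SylIn p M P' then toSyl p M P' hP' else S,
      fun P' hP' => dif_pos hP'⟩
  have hstep : ∀ P' Q' : Subgroup G,
      ASt p f M ((S : Subgroup ↥M).map M.subtype ⊓ (T : Subgroup ↥M).map M.subtype) P' Q' →
      St p ((fun X : Subgroup G => X.subgroupOf M) '' Cfsg.functorFamily p f M)
        ((S : Subgroup ↥M) ⊓ (T : Subgroup ↥M)) (g P') (g Q') := by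
    intro P' Q' hst
    obtain ⟨hP', hQ', hD1, hD2', R₀, F, x, hR₀, hF, hxM, hxN, hPN, hQN, hconj⟩ := hst
    rw [hg P' hP', hg Q' hQ']
    have hXmem : ∀ y : ↥M, y ∈ (M ⊓ Subgroup.normalizer (F : Set G)).subgroupOf M ↔
        (y : G) ∈ Subgroup.normalizer (F : Set G) := by
      intro y
      rw [Subgroup.mem_subgroupOf, Subgroup.mem_inf]
      exact ⟨fun h => h.2, fun h => ⟨y.2, h⟩⟩
    have hhom : (MulAut.conj x⁻¹).toMonoidHom.comp M.subtype =
        M.subtype.comp (MulAut.conj (⟨x, hxM⟩ : ↥M)⁻¹).toMonoidHom :=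
      MonoidHom.ext fun y => rfl
    refine ⟨(M ⊓ Subgroup.normalizer (F : Set G)).subgroupOf M, ⟨x, hxM⟩,
      mem_sm p f M R₀ F P' hR₀ hF hP' hPN, mem_sm p f M R₀ F Q' hR₀ hF hQ' hQN,
      (hXmem ⟨x, hxM⟩).mpr hxN, ?_, ?_, ?_, ?_⟩
    · apply Subgroup.map_injective (Subgroup.subtype_injective M)
      rw [toSyl_map]
      show (((toSyl p M Q' hQ' : Sylow p ↥M) : Subgroup ↥M).map
        (MulAut.conj (⟨x, hxM⟩ : ↥M)⁻¹).toMonoidHom).map M.subtype = P'
      rw [Subgroup.map_map, ← hhom, ← Subgroup.map_map, toSyl_map]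
      exact hconj
    · intro y hy
      rw [toSyl_coe, Subgroup.mem_subgroupOf]
      exact hD1 ((hDM y).mp hy)
    · intro y hy
      rw [toSyl_coe, Subgroup.mem_subgroupOf]
      exact hD2' ((hDM y).mp hy)
    · intro y hy
      exact (hXmem y).mpr (hPN (hD1 ((hDM y).mp hy)))
  have key := Relation.ReflTransGen.lift g hstep _ _ chain
  have key' : Relation.ReflTransGen
      (St p ((fun X : Subgroup G => X.subgroupOf M) '' Cfsg.functorFamily p f M)
        ((S : Subgroup ↥M) ⊓ (T : Subgroup ↥M)))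
      (g ((S : Subgroup ↥M).map M.subtype)) (g ((T : Subgroup ↥M).map M.subtype)) := key
  rw [hg _ hPs, hg _ hQs, toSyl_of_map p M S hPs, toSyl_of_map p M T hQs] at key'
  exact key'

theorem ASt_mono_D (p : ℕ) (f : Subgroup G → Set (Subgroup G)) (M : Subgroup G)
    {D D' P Q : Subgroup G} (h : D' ≤ D) (hst : ASt p f M D P Q) : ASt p f M D' P Q := by
  obtain ⟨h1, h2, h3, h4, h5⟩ := hst
  exact ⟨h1, h2, le_trans h h3, le_trans h h4, h5⟩

theorem ASt_top (p : ℕ) (f : Subgroup G → Set (Subgroup G)) (M : Subgroup G)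
    (hv : (Nat.card M).factorization p = (Nat.card (⊤ : Subgroup G)).factorization p)
    {D P Q : Subgroup G} (hst : ASt p f M D P Q) : ASt p f ⊤ D P Q := by
  have key : ∀ P' : Subgroup G, SylIn p M P' → SylIn p (⊤ : Subgroup G) P' :=
    fun P' h => ⟨le_top, by rw [h.2, hv]⟩
  obtain ⟨h1, h2, h3, h4, R, F, x, hR, hF, hxM, hxN, hPN, hQN, hconj⟩ := hst
  exact ⟨key _ h1, key _ h2, h3, h4, R, F, x, key _ hR, hF, Subgroup.mem_top x, hxN, hPN,
    hQN, hconj⟩

theorem ASt_conj (p : ℕ) [Fact p.Prime] (f : Subgroup G → Set (Subgroup G))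
    (hf : Cfsg.IsNormalizerFunctor p f) (g : G) {D P Q : Subgroup G}
    (hst : ASt p f ⊤ D P Q) :
    ASt p f ⊤ (D.map (MulAut.conj g).toMonoidHom) (P.map (MulAut.conj g).toMonoidHom)
      (Q.map (MulAut.conj g).toMonoidHom) := by
  have key : ∀ P' : Subgroup G, SylIn p (⊤ : Subgroup G) P' →
      SylIn p (⊤ : Subgroup G) (P'.map (MulAut.conj g).toMonoidHom) := fun P' h =>
    ⟨le_top, by
      rw [Subgroup.card_map_of_injective (MulAut.conj g).injective]; exact h.2⟩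
  obtain ⟨h1, h2, h3, h4, R, F, x, hR, hF, hxM, hxN, hPN, hQN, hconj⟩ := hst
  have hRp : IsPGroup p ↥R := IsPGroup.of_card hR.2
  have hFg : F.map (MulAut.conj g).toMonoidHom ∈ f (R.map (MulAut.conj g).toMonoidHom) := by
    rw [(hf R hRp).2 g]; exact ⟨F, hF, rfl⟩
  refine ⟨key _ h1, key _ h2, Subgroup.map_mono h3, Subgroup.map_mono h4,
    R.map (MulAut.conj g).toMonoidHom, F.map (MulAut.conj g).toMonoidHom, g * x * g⁻¹,
    key _ hR, hFg, Subgroup.mem_top _, conj_mem_normalizer F g x hxN, ?_, ?_, ?_⟩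
  · intro y hy
    rw [Cfsg.Agent.Lib.helper10.mem_map_conj] at hy
    have h5 := conj_mem_normalizer F g _ (hPN hy)
    have e : g * (g⁻¹ * y * g) * g⁻¹ = y := by group
    rw [e] at h5; exact h5
  · intro y hy
    rw [Cfsg.Agent.Lib.helper10.mem_map_conj] at hy
    have h5 := conj_mem_normalizer F g _ (hQN hy)
    have e : g * (g⁻¹ * y * g) * g⁻¹ = y := by group
    rw [e] at h5; exact h5
  · ext y
    rw [Cfsg.Agent.Lib.helper10.mem_map_conj, Cfsg.Agent.Lib.helper10.mem_map_conj,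
      Cfsg.Agent.Lib.helper10.mem_map_conj, ← hconj, Cfsg.Agent.Lib.helper10.mem_map_conj]
    have e : g⁻¹ * ((g * x * g⁻¹)⁻¹⁻¹ * y * (g * x * g⁻¹)⁻¹) * g =
        x⁻¹⁻¹ * (g⁻¹ * y * g) * x⁻¹ := by group
    rw [e]

/-- transport of an ambient chain in the whole group by conjugation -/
theorem chain_conj (p : ℕ) [Fact p.Prime] (f : Subgroup G → Set (Subgroup G))
    (hf : Cfsg.IsNormalizerFunctor p f) (g : G) {D D' P Q : Subgroup G}
    (hD : D' ≤ D.map (MulAut.conj g).toMonoidHom)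
    (h : Relation.ReflTransGen (ASt p f ⊤ D) P Q) :
    Relation.ReflTransGen (ASt p f ⊤ D') (P.map (MulAut.conj g).toMonoidHom)
      (Q.map (MulAut.conj g).toMonoidHom) := by
  have h1 := Relation.ReflTransGen.lift (fun P' : Subgroup G => P'.map (MulAut.conj g).toMonoidHom)
    (fun a b hab => ASt_conj p f hf g hab) _ _ h
  have h2 : Relation.ReflTransGen (ASt p f ⊤ (D.map (MulAut.conj g).toMonoidHom))
      (P.map (MulAut.conj g).toMonoidHom) (Q.map (MulAut.conj g).toMonoidHom) := h1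
  exact Relation.ReflTransGen.mono (fun a b hab => ASt_mono_D p f ⊤ hD hab) _ _ h2

theorem exists_conj_in (p : ℕ) [Fact p.Prime] (S : Sylow p G) (K : Subgroup G)
    (hSK : (S : Subgroup G) ≤ K) (D : Subgroup G) (hDK : D ≤ K) (hD : IsPGroup p ↥D) :
    ∃ h ∈ K, D ≤ (S : Subgroup G).map (MulAut.conj h).toMonoidHom := by
  obtain ⟨k, hk⟩ := Cfsg.Agent.Lib.helper10.exists_conj_le_sylow (S.subtype hSK)
    (D.subgroupOf K) hD.comap_subtype
  refine ⟨(k : G)⁻¹, K.inv_mem k.2, ?_⟩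
  intro d hd
  rw [Cfsg.Agent.Lib.helper10.mem_map_conj, inv_inv]
  have h1 := hk ⟨d, hDK hd⟩ (Subgroup.mem_subgroupOf.mpr hd)
  exact h1

end fin

end Cfsg.Agent.Lib.helper29.SylCtl
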