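import Mathlib
import Cfsg.Agent.Lib.helper29.SylCtl
import Cfsg.Agent.Lib.helper29.Subnz

set_option autoImplicit false

/-! Further tools on control of Sylow intersections (ambient Sylow subgroups of subgroups). -/

namespace Cfsg.Agent.Lib.helper29.SylCtl

open Cfsg

universe u

variable {G : Type u} [Group G] [Finite G]

theorem rtg_symm {α : Type*} {r : α → α → Prop} (hr : ∀ a b, r a b → r b a) {a b : α}
    (h : Relation.ReflTransGen r a b) : Relation.ReflTransGen r b a := by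
  induction h with
  | refl => exact Relation.ReflTransGen.refl
  | tail _ hbc ih => exact Relation.ReflTransGen.head (hr _ _ hbc) ih

theorem card_le_ppart (p : ℕ) [Fact p.Prime] (M A : Subgroup G) (hA : IsPGroup p ↥A)
    (hAM : A ≤ M) : Nat.card A ≤ p ^ (Nat.card M).factorization p := by
  have hp : p.Prime := Fact.out
  obtain ⟨j, hj⟩ := IsPGroup.iff_card.mp hA
  rw [hj]
  apply Nat.pow_le_pow_right hp.pos
  apply (hp.pow_dvd_iff_le_factorization Nat.card_pos.ne').mp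
  rw [← hj]; exact Subgroup.card_dvd_of_le hAM

theorem exists_sylow_over (p : ℕ) [Fact p.Prime] (M A : Subgroup G) (hA : IsPGroup p ↥A)
    (hAM : A ≤ M) :
    ∃ S : Sylow p G, SylIn p M ((S : Subgroup G) ⊓ M) ∧ A ≤ (S : Subgroup G) := by
  obtain ⟨B', hB'⟩ := (hA.comap_subtype (K := M)).exists_le_sylow
  have hB := sylIn_map p M B'
  obtain ⟨S, hS⟩ := (IsPGroup.of_card hB.2).exists_le_sylow
  have hAB : A ≤ (B' : Subgroup ↥M).map M.subtype := by
    intro a ha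
    exact ⟨⟨a, hAM ha⟩, hB' (Subgroup.mem_subgroupOf.mpr ha), rfl⟩
  have hle : (B' : Subgroup ↥M).map M.subtype ≤ (S : Subgroup G) ⊓ M := le_inf hS hB.1
  have heq : (B' : Subgroup ↥M).map M.subtype = (S : Subgroup G) ⊓ M := by
    apply Subgroup.eq_of_le_of_card_ge hle
    rw [hB.2]
    exact card_le_ppart p M _ (S.isPGroup'.to_le inf_le_left) inf_le_right
  refine ⟨S, ?_, le_trans hAB hS⟩
  rw [← heq]; exact hB

theorem sylIn_conj (p : ℕ) [Fact p.Prime] (M P Q : Subgroup G) (hP : SylIn p M P)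
    (hQ : SylIn p M Q) : ∃ m ∈ M, Q = P.map (MulAut.conj m).toMonoidHom := by
  obtain ⟨k, hk⟩ := Cfsg.Agent.Lib.helper10.exists_conj_le_sylow (toSyl p M Q hQ)
    (P.subgroupOf M) ((IsPGroup.of_card hP.2).comap_subtype)
  refine ⟨(k : G), k.2, ?_⟩
  symm
  apply Subgroup.eq_of_le_of_card_ge
  · rintro _ ⟨r, hr, rfl⟩
    have h1 := hk ⟨r, hP.1 hr⟩ (Subgroup.mem_subgroupOf.mpr hr)
    rw [toSyl_coe, Subgroup.mem_subgroupOf] at h1
    exact h1
  · rw [Subgroup.card_map_of_injective (MulAut.conj (k : G)).injective, hP.2, hQ.2]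

theorem exists_max_plocal (p : ℕ) (H : Subgroup G) (hH : Cfsg.IsPLocal p H) :
    ∃ M : Subgroup G, Cfsg.IsMaximalPLocal p M ∧ H ≤ M := by
  obtain ⟨M, ⟨hM1, hM2⟩, hmax⟩ := Set.exists_max_image
    {N : Subgroup G | Cfsg.IsPLocal p N ∧ H ≤ N} (fun N => Nat.card N) (Set.toFinite _)
    ⟨H, hH, le_refl H⟩
  refine ⟨M, ⟨hM1, ?_⟩, hM2⟩
  intro N hN hMN
  exact (Subgroup.eq_of_le_of_card_ge hMN (hmax N ⟨hN, le_trans hM2 hMN⟩)).symm

theorem smul_inf (p : ℕ) [Fact p.Prime] (M : Subgroup G) (S₁ : Sylow p G) (x : G)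
    (hx : x ∈ M) :
    ((x • S₁ : Sylow p G) : Subgroup G) ⊓ M =
      ((S₁ : Subgroup G) ⊓ M).map (MulAut.conj x).toMonoidHom := by
  ext y
  rw [Subgroup.mem_inf, Cfsg.Agent.Lib.helper10.mem_smul_sylow_iff,
    Cfsg.Agent.Lib.helper10.mem_map_conj, Subgroup.mem_inf]
  constructor
  · rintro ⟨h1, h2⟩
    exact ⟨h1, M.mul_mem (M.mul_mem (M.inv_mem hx) h2) hx⟩
  · rintro ⟨h1, h2⟩
    refine ⟨h1, ?_⟩
    have h3 := M.mul_mem (M.mul_mem hx h2) (M.inv_mem hx)
    have e : x * (x⁻¹ * y * x) * x⁻¹ = y := by group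
    rw [e] at h3; exact h3

/-- conjugating a Sylow subgroup by an element of a member of the family is one step -/
theorem step_conj (p : ℕ) [Fact p.Prime] (𝓧 : Set (Subgroup G)) (D X : Subgroup G)
    (S₁ : Sylow p G) (x : G) (hX : X ∈ 𝓧) (hxX : x ∈ X)
    (hS : SylIn p X ((S₁ : Subgroup G) ⊓ X)) (hD1 : D ≤ (S₁ : Subgroup G))
    (hD2 : D ≤ ((x • S₁ : Sylow p G) : Subgroup G)) (hD3 : D ≤ X) :
    St p 𝓧 D S₁ (x • S₁) := by
  have e := smul_inf p X S₁ x hxX
  refine ⟨X, x, mem_sylowMembers_of p 𝓧 X _ hX hS, mem_sylowMembers_of p 𝓧 X _ hX ?_, hxX, ?_,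
    hD1, hD2, hD3⟩
  · exact ⟨inf_le_right, by
      rw [e, Subgroup.card_map_of_injective (MulAut.conj x).injective]; exact hS.2⟩
  · unfold Cfsg.subgroupConjRight
    rw [Cfsg.Agent.Lib.helper10.sylow_smul_eq_map]
    exact map_conj_inv _ x

end Cfsg.Agent.Lib.helper29.SylCtl
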